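import Mathlib
import Cfsg.Prelude.Def_Characters

set_option autoImplicit false

/-!
# S0984 (a simple group of order 2520 is `A₇`): package statements

Plan: Sylow data (`Data`), the `3`-local structure (`u` of order four in `N(P₃)` with `u²`
inverting `P₃`), a real irreducible character of degree six, and a fixed vector of the
corresponding representation whose stabilizer has index seven.
Each package is a `Prop`; a package `X` is proved as `theorem lemX : LemX.{u}`.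
-/

namespace Cfsg.Agent.Lib.Helper6.A7

universe u

/-- The Sylow `7`- and `5`-data of a simple group of order `2520`. -/
structure Data (G : Type u) [Group G] : Prop where
  card : Nat.card G = 2520
  c7 : ∀ P : Sylow 7 G, Subgroup.centralizer ((P : Subgroup G) : Set G) = (P : Subgroup G)
  n7 : ∀ P : Sylow 7 G, Nat.card (Subgroup.normalizer ((P : Subgroup G) : Set G)) = 21
  c5 : ∀ P : Sylow 5 G, Subgroup.centralizer ((P : Subgroup G) : Set G) = (P : Subgroup G)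
  n5 : ∀ P : Sylow 5 G, Nat.card (Subgroup.normalizer ((P : Subgroup G) : Set G)) = 20

/-- every involution centralizes a Sylow `2`-subgroup -/
def TwoCentral (G : Type u) [Group G] : Prop :=
  ∀ r : G, orderOf r = 2 → 8 ∣ Nat.card (Subgroup.centralizer ({r} : Set G))

/-- an element of order four not commuting with the rest of its Sylow `2`-subgroup -/
def S2NonAbelian (G : Type u) [Group G] : Prop :=
  ∀ S : Sylow 2 G, ∀ u ∈ (S : Subgroup G), orderOf u = 4 →
    ∀ s ∈ (S : Subgroup G), s ∉ Subgroup.zpowers u → s * u ≠ u * s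

/-- a Sylow `2`-subgroup has two involutions -/
def S2TwoInv (G : Type u) [Group G] : Prop :=
  ∀ S : Sylow 2 G, ∃ r₁ ∈ (S : Subgroup G), ∃ r₂ ∈ (S : Subgroup G),
    orderOf r₁ = 2 ∧ orderOf r₂ = 2 ∧ r₁ ≠ r₂

/-- no irreducible character of degree four with value `-1` on a Sylow `5`-subgroup -/
def NoDeg4 (G : Type u) [Group G] : Prop :=
  ∀ P : Sylow 5 G, ∀ η : Cfsg.IrrCharacter G, (η : G → ℂ) 1 = 4 →
    (∀ y ∈ (P : Subgroup G), y ≠ 1 → (η : G → ℂ) y = -1) → False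

/-- no real irreducible character of degree nine -/
def NoDeg9 (G : Type u) [Group G] : Prop :=
  ∀ χ : Cfsg.IrrCharacter G, (χ : G → ℂ) 1 = 9 → (∀ g, (χ : G → ℂ) g⁻¹ = (χ : G → ℂ) g) → False

/-! ### Sylow `7` -/

/-- (A15) -/
def LemS7No15 : Prop :=
  ∀ (G : Type u) [Group G] [Finite G] [IsSimpleGroup G], Nat.card G = 2520 →
    Nat.card (Sylow 7 G) ≠ 15

/-- (A36) -/
def LemS7No36 : Prop :=
  ∀ (G : Type u) [Group G] [Finite G] [IsSimpleGroup G], Nat.card G = 2520 →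
    Nat.card (Sylow 7 G) ≠ 36

/-- (A) -/
def LemSylow7 : Prop :=
  ∀ (G : Type u) [Group G] [Finite G] [IsSimpleGroup G], Nat.card G = 2520 →
    Nat.card (Sylow 7 G) ≠ 15 → Nat.card (Sylow 7 G) ≠ 36 →
    ∀ P : Sylow 7 G, Subgroup.centralizer ((P : Subgroup G) : Set G) = (P : Subgroup G) ∧
      Nat.card (Subgroup.normalizer ((P : Subgroup G) : Set G)) = 21

/-! ### Sylow `5` -/

/-- (B2) -/
def LemS5Inv2 : Prop :=
  ∀ (G : Type u) [Group G] [Finite G] [IsSimpleGroup G], Nat.card G = 2520 →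
    ∀ P : Sylow 5 G, (Subgroup.centralizer ((P : Subgroup G) : Set G)).relIndex
      (Subgroup.normalizer ((P : Subgroup G) : Set G)) = 2 →
    ∀ c ∈ Subgroup.centralizer ((P : Subgroup G) : Set G), orderOf c ≠ 2

/-- (B4) -/
def LemS5Inv4 : Prop :=
  ∀ (G : Type u) [Group G] [Finite G] [IsSimpleGroup G], Nat.card G = 2520 →
    ∀ P : Sylow 5 G, (Subgroup.centralizer ((P : Subgroup G) : Set G)).relIndex
      (Subgroup.normalizer ((P : Subgroup G) : Set G)) = 4 →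
    ∀ c ∈ Subgroup.centralizer ((P : Subgroup G) : Set G), orderOf c ≠ 2

/-- (B) -/
def LemSylow5 : Prop :=
  ∀ (G : Type u) [Group G] [Finite G] [IsSimpleGroup G], Nat.card G = 2520 →
    (∀ P : Sylow 7 G, Subgroup.centralizer ((P : Subgroup G) : Set G) = (P : Subgroup G)) →
    (∀ P : Sylow 5 G, (Subgroup.centralizer ((P : Subgroup G) : Set G)).relIndex
      (Subgroup.normalizer ((P : Subgroup G) : Set G)) = 2 →
      ∀ c ∈ Subgroup.centralizer ((P : Subgroup G) : Set G), orderOf c ≠ 2) →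
    (∀ P : Sylow 5 G, (Subgroup.centralizer ((P : Subgroup G) : Set G)).relIndex
      (Subgroup.normalizer ((P : Subgroup G) : Set G)) = 4 →
      ∀ c ∈ Subgroup.centralizer ((P : Subgroup G) : Set G), orderOf c ≠ 2) →
    ∀ P : Sylow 5 G, Subgroup.centralizer ((P : Subgroup G) : Set G) = (P : Subgroup G) ∧
      Nat.card (Subgroup.normalizer ((P : Subgroup G) : Set G)) = 20

/-! ### Sylow `3` -/

/-- (C) -/
def LemSylow3 : Prop :=
  ∀ (G : Type u) [Group G] [Finite G] [IsSimpleGroup G], Data G →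
    ∀ P : Sylow 3 G, (Subgroup.normalizer ((P : Subgroup G) : Set G)).index = 7 ∨
      Nat.card (Subgroup.normalizer ((P : Subgroup G) : Set G)) = 36

/-- (E) -/
def LemTwoCentral : Prop :=
  ∀ (G : Type u) [Group G] [Finite G] [IsSimpleGroup G], Nat.card G = 2520 → TwoCentral G

/-- (F1) -/
def LemC3 : Prop :=
  ∀ (G : Type u) [Group G] [Finite G] [IsSimpleGroup G], Data G → TwoCentral G →
    ∀ P : Sylow 3 G, Nat.card (Subgroup.normalizer ((P : Subgroup G) : Set G)) = 36 →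
      Subgroup.centralizer ((P : Subgroup G) : Set G) = (P : Subgroup G)

/-- (F2a) -/
def LemN3Cases : Prop :=
  ∀ (G : Type u) [Group G] [Finite G] [IsSimpleGroup G], Nat.card G = 2520 →
    ∀ P : Sylow 3 G, Nat.card (Subgroup.normalizer ((P : Subgroup G) : Set G)) = 36 →
      Subgroup.centralizer ((P : Subgroup G) : Set G) = (P : Subgroup G) →
      (∃ u ∈ Subgroup.normalizer ((P : Subgroup G) : Set G), orderOf u = 4 ∧
        ∀ y ∈ (P : Subgroup G), u ^ 2 * y * (u ^ 2)⁻¹ = y⁻¹) ∨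
      (∃ a b x : G, a ∈ Subgroup.normalizer ((P : Subgroup G) : Set G) ∧
        b ∈ Subgroup.normalizer ((P : Subgroup G) : Set G) ∧ x ∈ (P : Subgroup G) ∧
        orderOf a = 2 ∧ orderOf b = 2 ∧ orderOf x = 3 ∧ a * b = b * a ∧ a ≠ b ∧
        b * x = x * b ∧ a * x * a⁻¹ = x⁻¹ ∧
        Subgroup.normalizer ((P : Subgroup G) : Set G) ≤
          Subgroup.normalizer ((Subgroup.zpowers x : Subgroup G) : Set G))

/-- (F2b) -/
def LemN3NoV4 : Prop :=
  ∀ (G : Type u) [Group G] [Finite G] [IsSimpleGroup G], Data G → TwoCentral G →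
    ∀ P : Sylow 3 G, Nat.card (Subgroup.normalizer ((P : Subgroup G) : Set G)) = 36 →
      Subgroup.centralizer ((P : Subgroup G) : Set G) = (P : Subgroup G) →
      ∀ a b x : G, a ∈ Subgroup.normalizer ((P : Subgroup G) : Set G) →
        b ∈ Subgroup.normalizer ((P : Subgroup G) : Set G) → x ∈ (P : Subgroup G) →
        orderOf a = 2 → orderOf b = 2 → orderOf x = 3 → a * b = b * a → a ≠ b →
        b * x = x * b → a * x * a⁻¹ = x⁻¹ →
        Subgroup.normalizer ((P : Subgroup G) : Set G) ≤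
          Subgroup.normalizer ((Subgroup.zpowers x : Subgroup G) : Set G) → False

/-- (C') -/
def LemOver : Prop :=
  ∀ (G : Type u) [Group G] [Finite G] [IsSimpleGroup G], Nat.card G = 2520 →
    ∀ P : Sylow 3 G, Nat.card (Subgroup.normalizer ((P : Subgroup G) : Set G)) = 36 →
    ∀ (S : Sylow 2 G) (K : Subgroup G),
      Subgroup.normalizer ((P : Subgroup G) : Set G) ≤ K → (S : Subgroup G) ≤ K → K ≠ ⊤ →
      K.index = 7

/-! ### Sylow `2` -/

/-- (Ga) -/
def LemS2NonAbelian : Prop :=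
  ∀ (G : Type u) [Group G] [Finite G] [IsSimpleGroup G], Nat.card G = 2520 → S2NonAbelian G

/-- (Gb) -/
def LemS2TwoInv : Prop :=
  ∀ (G : Type u) [Group G] [Finite G] [IsSimpleGroup G], Nat.card G = 2520 → S2TwoInv G

/-- (Gc) -/
def LemSylow2 : Prop :=
  ∀ (G : Type u) [Group G] [Finite G] [IsSimpleGroup G], Nat.card G = 2520 →
    S2NonAbelian G → S2TwoInv G →
    ∀ S : Sylow 2 G, ∀ u ∈ (S : Subgroup G), orderOf u = 4 →
      ∀ s ∈ (S : Subgroup G), s ∉ Subgroup.zpowers u → IsConj s (u ^ 2)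

/-! ### Characters -/

/-- (D1) -/
def LemNoDeg4 : Prop :=
  ∀ (G : Type u) [Group G] [Finite G] [IsSimpleGroup G], Data G → NoDeg4 G

/-- (D2) -/
def LemNoDeg9 : Prop :=
  ∀ (G : Type u) [Group G] [Finite G] [IsSimpleGroup G], Data G → NoDeg9 G

/-- (D3) -/
def LemChar6 : Prop :=
  ∀ (G : Type u) [Group G] [Finite G] [IsSimpleGroup G], Data G → NoDeg4 G → NoDeg9 G →
    ∃ χ : Cfsg.IrrCharacter G, (χ : G → ℂ) 1 = 6 ∧ ∀ g, (χ : G → ℂ) g⁻¹ = (χ : G → ℂ) g

/-- (H) -/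
def LemCharSums : Prop :=
  ∀ (G : Type u) [Group G] [Finite G] [IsSimpleGroup G], Nat.card G = 2520 →
    ∀ χ : Cfsg.IrrCharacter G, (χ : G → ℂ) 1 = 6 → (∀ g, (χ : G → ℂ) g⁻¹ = (χ : G → ℂ) g) →
    ∀ P : Sylow 3 G, Nat.card (Subgroup.normalizer ((P : Subgroup G) : Set G)) = 36 →
    ∀ u ∈ Subgroup.normalizer ((P : Subgroup G) : Set G), orderOf u = 4 →
      (∀ y ∈ (P : Subgroup G), u ^ 2 * y * (u ^ 2)⁻¹ = y⁻¹) →
      (χ : G → ℂ) u = 0 ∧ (χ : G → ℂ) (u ^ 2) = 2 ∧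
        ∑ᶠ m : Subgroup.normalizer ((P : Subgroup G) : Set G), (χ : G → ℂ) (m : G) = 36

/-- (K) -/
def LemSums : Prop :=
  ∀ (G : Type u) [Group G] [Finite G] (χ : G → ℂ) (S : Subgroup G) (u : G),
    Nat.card S = 8 → u ∈ S → orderOf u = 4 → χ 1 = 6 → χ u = 0 → χ (u ^ 2) = 2 →
    χ u⁻¹ = χ u → (∀ s ∈ S, s ∉ Subgroup.zpowers u → χ s = 2) →
    ∑ᶠ t : Subgroup.zpowers u, χ (t : G) = 8 ∧ ∑ᶠ s : S, χ (s : G) = 16

/-- (Ia) -/
def LemFix : Prop :=
  ∀ (G : Type u) [Group G] [Finite G] (n : ℕ) (ρ : Representation ℂ G (Fin n → ℂ))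
    (T S M : Subgroup G), T ≤ S → T ≤ M →
    (Nat.card T : ℂ) * ∑ᶠ s : S, ρ.character (s : G) =
      (Nat.card S : ℂ) * ∑ᶠ t : T, ρ.character (t : G) →
    ∑ᶠ m : M, ρ.character (m : G) ≠ 0 →
    ∃ v : Fin n → ℂ, v ≠ 0 ∧ (∀ g ∈ M, ρ g v = v) ∧ (∀ g ∈ S, ρ g v = v)

/-- (Ib) -/
def LemStab : Prop :=
  ∀ (G : Type u) [Group G] [Finite G] (n : ℕ) (ρ : Representation ℂ G (Fin n → ℂ)),
    ρ.IsIrreducible → n ≠ 1 → ∀ v : Fin n → ℂ, v ≠ 0 →
    ∃ K : Subgroup G, K ≠ ⊤ ∧ ∀ g : G, g ∈ K ↔ ρ g v = v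

/-- (J) -/
def LemIso : Prop :=
  ∀ (G : Type u) [Group G] [Finite G] [IsSimpleGroup G], Nat.card G = 2520 →
    ∀ K : Subgroup G, K.index = 7 → Nonempty (G ≃* alternatingGroup (Fin 7))

end Cfsg.Agent.Lib.Helper6.A7
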