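import Mathlib
import Cfsg.Agent.Lib.Helper6.A7.Defs

set_option autoImplicit false

/-!
# S0984: assembly of the packages
-/

namespace Cfsg.Agent.Lib.Helper6.A7

universe u

theorem iso_of_packages
    (hA15 : LemS7No15.{u}) (hA36 : LemS7No36.{u}) (hA : LemSylow7.{u})
    (hB2 : LemS5Inv2.{u}) (hB4 : LemS5Inv4.{u}) (hB : LemSylow5.{u})
    (hC : LemSylow3.{u}) (hE : LemTwoCentral.{u}) (hF1 : LemC3.{u}) (hF2a : LemN3Cases.{u})
    (hF2b : LemN3NoV4.{u}) (hO : LemOver.{u})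
    (hGa : LemS2NonAbelian.{u}) (hGb : LemS2TwoInv.{u}) (hGc : LemSylow2.{u})
    (hD1 : LemNoDeg4.{u}) (hD2 : LemNoDeg9.{u}) (hD3 : LemChar6.{u}) (hH : LemCharSums.{u})
    (hK : LemSums.{u}) (hIa : LemFix.{u}) (hIb : LemStab.{u}) (hJ : LemIso.{u})
    (G : Type u) [Group G] [Finite G] [IsSimpleGroup G] (h : Nat.card G = 2520) :
    Nonempty (G ≃* alternatingGroup (Fin 7)) := by
  classical
  have : Fact (Nat.Prime 2) := ⟨by norm_num⟩
  have : Fact (Nat.Prime 3) := ⟨by norm_num⟩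
  have h7 := hA G h (hA15 G h) (hA36 G h)
  have h5 := hB G h (fun P => (h7 P).1) (hB2 G h) (hB4 G h)
  have hD : Data G :=
    ⟨h, fun P => (h7 P).1, fun P => (h7 P).2, fun P => (h5 P).1, fun P => (h5 P).2⟩
  obtain ⟨P⟩ := (Sylow.nonempty : Nonempty (Sylow 3 G))
  rcases hC G hD P with h7i | h36
  · exact hJ G h _ h7i
  have hTC := hE G h
  have hCP := hF1 G hD hTC P h36
  obtain ⟨u, huN, hu4, huinv⟩ : ∃ u ∈ Subgroup.normalizer ((P : Subgroup G) : Set G),
      orderOf u = 4 ∧ ∀ y ∈ (P : Subgroup G), u ^ 2 * y * (u ^ 2)⁻¹ = y⁻¹ := by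
    rcases hF2a G h P h36 hCP with h1 | ⟨a, b, x, ha, hb, hx, ha2, hb2, hx3, hab, hne, hbx, hax, hle⟩
    · exact h1
    · exact (hF2b G hD hTC P h36 hCP a b x ha hb hx ha2 hb2 hx3 hab hne hbx hax hle).elim
  obtain ⟨χ, hχ1, hχr⟩ := hD3 G hD (hD1 G hD) (hD2 G hD)
  obtain ⟨hχu, hχu2, hsumM⟩ := hH G h χ hχ1 hχr P h36 u huN hu4 huinv
  -- a Sylow 2-subgroup containing u
  obtain ⟨S, hS⟩ : ∃ S : Sylow 2 G, Subgroup.zpowers u ≤ (S : Subgroup G) := by
    apply IsPGroup.exists_le_sylow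
    have hc : Nat.card (Subgroup.zpowers u) = 2 ^ 2 := by rw [Nat.card_zpowers, hu4]; norm_num
    exact IsPGroup.of_card hc
  have huS : u ∈ (S : Subgroup G) := hS (Subgroup.mem_zpowers u)
  have hconj := hGc G h (hGa G h) (hGb G h) S u huS hu4
  have hcardS : Nat.card (S : Subgroup G) = 8 := by
    rw [Sylow.card_eq_multiplicity, h]
    have : (2520 : ℕ).factorization 2 = 3 := by
      have h2520 : (2520 : ℕ) = 2 ^ 3 * 315 := by norm_num
      rw [h2520, Nat.factorization_mul (by norm_num) (by norm_num), Nat.factorization_pow]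
      simp [Nat.factorization_eq_zero_of_not_dvd (show ¬ 2 ∣ 315 by norm_num),
        Nat.Prime.factorization_self Nat.prime_two]
    rw [this]
    norm_num
  obtain ⟨n, ρ, hirr, hρ⟩ := χ.2
  have hclassf : ∀ c s : G, (χ : G → ℂ) (c * s * c⁻¹) = (χ : G → ℂ) s := by
    intro c s
    rw [← hρ]
    exact Representation.char_conj ρ s c
  have hclass : ∀ s ∈ (S : Subgroup G), s ∉ Subgroup.zpowers u → (χ : G → ℂ) s = 2 := by
    intro s hs hsu
    obtain ⟨c, hc⟩ := isConj_iff.mp (hconj s hs hsu)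
    rw [← hχu2, ← hc, hclassf]
  obtain ⟨hsT, hsS⟩ := hK G (χ : G → ℂ) (S : Subgroup G) u hcardS huS hu4 hχ1 hχu hχu2
    (hχr u) hclass
  have hn : n ≠ 1 := by
    rintro rfl
    have h1 : (χ : G → ℂ) 1 = 1 := by
      rw [← hρ]
      simp [Representation.char_one]
    rw [hχ1] at h1
    norm_num at h1
  have hcT : Nat.card (Subgroup.zpowers u) = 4 := by rw [Nat.card_zpowers, hu4]
  obtain ⟨v, hv0, hvM, hvS⟩ := hIa G n ρ (Subgroup.zpowers u) (S : Subgroup G)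
    (Subgroup.normalizer ((P : Subgroup G) : Set G)) hS
    ((Subgroup.zpowers_le).mpr huN)
    (by rw [hρ, hsT, hsS, hcT, hcardS]; norm_num)
    (by rw [hρ, hsumM]; norm_num)
  obtain ⟨K, hKtop, hKmem⟩ := hIb G n ρ hirr hn v hv0
  have hMK : Subgroup.normalizer ((P : Subgroup G) : Set G) ≤ K :=
    fun g hg => (hKmem g).mpr (hvM g hg)
  have hSK : (S : Subgroup G) ≤ K := fun g hg => (hKmem g).mpr (hvS g hg)
  exact hJ G h K (hO G h P h36 S K hMK hSK hKtop)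

end Cfsg.Agent.Lib.Helper6.A7
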