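import Mathlib
import Cfsg.Agent.Lib.Helper6.A7.Defs

set_option autoImplicit false

/-!
# S0984, packages (Ia) and (Ib): fixed vectors
-/

namespace Cfsg.Agent.Lib.Helper6.A7

universe u

open Representation

/-- the sum of a character over a subgroup -/
theorem finsum_char_subgroup {G : Type u} [Group G] [Finite G] {n : ℕ}
    (ρ : Representation ℂ G (Fin n → ℂ)) (H : Subgroup G) :
    ∑ᶠ w : H, ρ.character (w : G) =
      (Nat.card H : ℂ) * (Module.finrank ℂ (invariants (ρ.comp H.subtype)) : ℂ) := by
  classical
  have : Fintype H := Fintype.ofFinite H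
  have hne : (Nat.card H : ℂ) ≠ 0 := by exact_mod_cast Nat.card_pos.ne'
  let _ : Invertible (Nat.card H : ℂ) := invertibleOfNonzero hne
  have h := card_inv_mul_sum_char_eq_finrank (ρ.comp H.subtype)
  rw [finsum_eq_sum_of_fintype, ← h, ← mul_assoc, mul_inv_cancel₀ hne, one_mul]
  rfl

theorem mem_invariants_comp {G : Type u} [Group G] {n : ℕ}
    (ρ : Representation ℂ G (Fin n → ℂ)) (H : Subgroup G) (v : Fin n → ℂ) :
    v ∈ invariants (ρ.comp H.subtype) ↔ ∀ g ∈ H, ρ g v = v := by
  rw [mem_invariants]
  constructor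
  · intro h g hg
    exact h ⟨g, hg⟩
  · intro h g
    exact h g g.2

theorem lemFix : LemFix.{u} := by
  intro G _ _ n ρ T S M hTS hTM hsum hM
  classical
  rw [finsum_char_subgroup ρ S, finsum_char_subgroup ρ T] at hsum
  rw [finsum_char_subgroup ρ M] at hM
  have hT0 : (Nat.card T : ℂ) ≠ 0 := by exact_mod_cast Nat.card_pos.ne'
  have hS0 : (Nat.card S : ℂ) ≠ 0 := by exact_mod_cast Nat.card_pos.ne'
  have hfr : Module.finrank ℂ (invariants (ρ.comp S.subtype)) =
      Module.finrank ℂ (invariants (ρ.comp T.subtype)) := by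
    have h1 : (Module.finrank ℂ (invariants (ρ.comp S.subtype)) : ℂ) =
        (Module.finrank ℂ (invariants (ρ.comp T.subtype)) : ℂ) := by
      have h2 : (Nat.card T : ℂ) * (Nat.card S : ℂ) *
          (Module.finrank ℂ (invariants (ρ.comp S.subtype)) : ℂ) =
          (Nat.card T : ℂ) * (Nat.card S : ℂ) *
          (Module.finrank ℂ (invariants (ρ.comp T.subtype)) : ℂ) := by
        linear_combination hsum
      exact mul_left_cancel₀ (mul_ne_zero hT0 hS0) h2
    exact_mod_cast h1
  have hle : invariants (ρ.comp S.subtype) ≤ invariants (ρ.comp T.subtype) := by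
    intro v hv
    rw [mem_invariants_comp] at hv ⊢
    exact fun g hg => hv g (hTS hg)
  have heq : invariants (ρ.comp S.subtype) = invariants (ρ.comp T.subtype) :=
    Submodule.eq_of_le_of_finrank_eq hle hfr
  have hMne : invariants (ρ.comp M.subtype) ≠ ⊥ := by
    intro h
    apply hM
    rw [h, finrank_bot]
    simp
  obtain ⟨v, hv, hv0⟩ := (Submodule.ne_bot_iff _).mp hMne
  refine ⟨v, hv0, (mem_invariants_comp ρ M v).mp hv, ?_⟩
  have hvT : v ∈ invariants (ρ.comp T.subtype) := by
    rw [mem_invariants_comp] at hv ⊢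
    exact fun g hg => hv g (hTM hg)
  rw [← heq] at hvT
  exact (mem_invariants_comp ρ S v).mp hvT

theorem lemStab : LemStab.{u} := by
  intro G _ _ n ρ hirr hn v hv
  classical
  let K : Subgroup G :=
    { carrier := {g | ρ g v = v}
      mul_mem' := by
        intro a b ha hb
        simp only [Set.mem_ofPred_eq] at ha hb ⊢
        rw [map_mul, Module.End.mul_apply, hb, ha]
      one_mem' := by simp
      inv_mem' := by
        intro a ha
        simp only [Set.mem_ofPred_eq] at ha ⊢
        have h1 : ρ a⁻¹ (ρ a v) = v := by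
          rw [← Module.End.mul_apply, ← map_mul, inv_mul_cancel, map_one, Module.End.one_apply]
        rw [ha] at h1
        exact h1 }
  refine ⟨K, ?_, fun g => Iff.rfl⟩
  intro htop
  have hfix : ∀ g : G, ρ g v = v := by
    intro g
    have : g ∈ K := by rw [htop]; exact Subgroup.mem_top g
    exact this
  -- the line spanned by v is a subrepresentation
  let L : Subrepresentation ρ :=
    { toSubmodule := Submodule.span ℂ {v}
      apply_mem_toSubmodule := by
        intro g w hw
        obtain ⟨c, rfl⟩ := Submodule.mem_span_singleton.mp hw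
        rw [map_smul, hfix g]
        exact Submodule.mem_span_singleton.mpr ⟨c, rfl⟩ }
  have hL : L = ⊥ ∨ L = ⊤ := by
    have : IsSimpleOrder (Subrepresentation ρ) := hirr
    exact eq_bot_or_eq_top L
  rcases hL with h | h
  · have h1 : L.toSubmodule = (⊥ : Subrepresentation ρ).toSubmodule := by rw [h]
    have h2 : v ∈ L.toSubmodule := Submodule.mem_span_singleton_self v
    rw [h1] at h2
    have h3 : (⊥ : Subrepresentation ρ).toSubmodule = ⊥ := rfl
    rw [h3] at h2
    exact hv ((Submodule.mem_bot ℂ).mp h2)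
  · have h1 : L.toSubmodule = (⊤ : Subrepresentation ρ).toSubmodule := by rw [h]
    have h2 : Submodule.span ℂ {v} = (⊤ : Submodule ℂ (Fin n → ℂ)) := by
      have : (⊤ : Subrepresentation ρ).toSubmodule = ⊤ := rfl
      rw [← this, ← h1]
    have h3 : Module.finrank ℂ (Submodule.span ℂ {v}) = n := by
      rw [h2, finrank_top]
      simp
    rw [finrank_span_singleton hv] at h3
    exact hn h3.symm

end Cfsg.Agent.Lib.Helper6.A7
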