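import Mathlib
import Cfsg.Agent.Lib.Helper6.A7.Defs
import Cfsg.Agent.Lib.Helper6.A7.LemFix
import Cfsg.Agent.Lib.Helper91.SSK1

set_option autoImplicit false

/-!
# S0984, package (H): the values of the degree six character on `N(P₃)`
-/

namespace Cfsg.Agent.Lib.Helper6.A7

universe u

open Representation

/-- the dimension of the fixed space is antitone in the subgroup -/
theorem finrank_invariants_le {G : Type u} [Group G] {n : ℕ}
    (ρ : Representation ℂ G (Fin n → ℂ)) {H K : Subgroup G} (h : H ≤ K) :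
    Module.finrank ℂ (invariants (ρ.comp K.subtype)) ≤
      Module.finrank ℂ (invariants (ρ.comp H.subtype)) := by
  apply Submodule.finrank_mono
  intro v hv
  rw [mem_invariants_comp] at hv ⊢
  exact fun g hg => hv g (h hg)

/-- decomposition of a subgroup into cosets of a subgroup -/
theorem finsum_cosets {G : Type u} [Group G] [Finite G] (P H : Subgroup G) (k : ℕ)
    (t : Fin k → G) (hmem : ∀ j, ∀ x ∈ P, t j * x ∈ H)
    (hinj : ∀ i j, ∀ x ∈ P, ∀ y ∈ P, t i * x = t j * y → i = j)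
    (hsurj : (∀ h ∈ H, ∃ j, ∃ x ∈ P, h = t j * x) ∨ Nat.card H = k * Nat.card P) :
    Nat.card H = k * Nat.card P ∧
      ∀ f : G → ℂ, ∑ᶠ h : H, f (h : G) = ∑ j, ∑ᶠ x : P, f (t j * (x : G)) := by
  classical
  have : Fintype H := Fintype.ofFinite H
  have : Fintype P := Fintype.ofFinite P
  let φ : Fin k × P → H := fun q => ⟨t q.1 * (q.2 : G), hmem q.1 q.2 q.2.2⟩
  have hφi : Function.Injective φ := by
    rintro ⟨i, x⟩ ⟨j, y⟩ h
    have h' : t i * (x : G) = t j * (y : G) := congrArg Subtype.val h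
    have hij := hinj i j x x.2 y y.2 h'
    subst hij
    have h2 := mul_left_cancel h'
    exact Prod.ext rfl (Subtype.ext h2)
  have hφ : Function.Bijective φ := by
    rcases hsurj with hs | hc
    · refine ⟨hφi, ?_⟩
      rintro ⟨h, hh⟩
      obtain ⟨j, x, hx, rfl⟩ := hs h hh
      exact ⟨(j, ⟨x, hx⟩), rfl⟩
    · refine (Fintype.bijective_iff_injective_and_card φ).mpr ⟨hφi, ?_⟩
      rw [Fintype.card_prod, Fintype.card_fin, ← Nat.card_eq_fintype_card,
        ← Nat.card_eq_fintype_card, hc]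
  refine ⟨?_, ?_⟩
  · have h1 := Fintype.card_of_bijective hφ
    rw [Fintype.card_prod, Fintype.card_fin, ← Nat.card_eq_fintype_card,
      ← Nat.card_eq_fintype_card] at h1
    exact h1.symm
  · intro f
    rw [finsum_eq_sum_of_fintype]
    have h2 : ∀ j : Fin k, ∑ᶠ x : P, f (t j * (x : G)) = ∑ x : P, f (t j * (x : G)) :=
      fun j => finsum_eq_sum_of_fintype _
    rw [Finset.sum_congr rfl (fun j _ => h2 j), ← Fintype.sum_prod_type']
    exact (Fintype.sum_bijective φ hφ _ _ (fun q => rfl)).symm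

/-- conjugates of an element acting without fixed points -/
theorem exists_conj_of_fpf {G : Type u} [Group G] [Finite G] (P : Subgroup G) (g : G)
    (hg : g ∈ Subgroup.normalizer (P : Set G))
    (hfpf : ∀ w ∈ P, w * g = g * w → w = 1) (x : G) (hx : x ∈ P) :
    ∃ y ∈ P, y * g * y⁻¹ = g * x := by
  classical
  have hgi : g⁻¹ ∈ Subgroup.normalizer (P : Set G) := inv_mem hg
  have hN : ∀ y : G, y ∈ P → g⁻¹ * y * g ∈ P := by
    intro y hy
    have := (Subgroup.mem_normalizer_iff.mp hgi y).mp hy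
    rwa [inv_inv] at this
  let f : P → P := fun y => ⟨g⁻¹ * (y : G) * g * (y : G)⁻¹, P.mul_mem (hN y y.2) (P.inv_mem y.2)⟩
  have hinj : Function.Injective f := by
    intro y z hyz
    have h1 : g⁻¹ * (y : G) * g * (y : G)⁻¹ = g⁻¹ * (z : G) * g * (z : G)⁻¹ :=
      congrArg Subtype.val hyz
    have h3 : (y : G) * g * (y : G)⁻¹ = (z : G) * g * (z : G)⁻¹ := by
      have := congrArg (fun s => g * s) h1
      simpa [mul_assoc] using this
    have h2 : ((z : G)⁻¹ * (y : G)) * g = g * ((z : G)⁻¹ * (y : G)) := by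
      calc (z : G)⁻¹ * (y : G) * g = (z : G)⁻¹ * ((y : G) * g * (y : G)⁻¹) * (y : G) := by group
        _ = (z : G)⁻¹ * ((z : G) * g * (z : G)⁻¹) * (y : G) := by rw [h3]
        _ = g * ((z : G)⁻¹ * (y : G)) := by group
    have h4 := hfpf _ (P.mul_mem (P.inv_mem z.2) y.2) h2
    rw [inv_mul_eq_one] at h4
    exact Subtype.ext h4.symm
  obtain ⟨y, hy⟩ := (Finite.injective_iff_surjective.mp hinj) ⟨x, hx⟩
  refine ⟨y, y.2, ?_⟩
  have h5 : g⁻¹ * (y : G) * g * (y : G)⁻¹ = x := congrArg Subtype.val hy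
  rw [← h5]
  group

/-- eigenvalue multiplicities of an element of order four with real trace and determinant one -/
theorem order_four_counts {ι : Type} [Fintype ι] (ν : ι → ℂ) (hν : ∀ i, ν i ^ 4 = 1)
    (hprod : ∏ i, ν i = 1) (h13 : ∑ i, ν i ^ 3 = ∑ i, ν i ^ 1) :
    ∃ No Na Nb : ℕ, Even Na ∧ ((Fintype.card ι : ℂ) = (No : ℂ) + (Na : ℂ) + 2 * (Nb : ℂ)) ∧
      (∑ i, ν i ^ 1 = (No : ℂ) - (Na : ℂ)) ∧
      (∑ i, ν i ^ 2 = (No : ℂ) + (Na : ℂ) - 2 * (Nb : ℂ)) := by
  classical
  have hI2 : Complex.I ^ 2 = -1 := Complex.I_sq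
  have hcases : ∀ i, ν i = 1 ∨ ν i = -1 ∨ ν i = Complex.I ∨ ν i = -Complex.I := by
    intro i
    have h := hν i
    have h' : (ν i - 1) * (ν i + 1) * (ν i - Complex.I) * (ν i + Complex.I) = 0 := by
      linear_combination h - (ν i ^ 2 - 1) * hI2
    rcases mul_eq_zero.mp h' with h1 | h1
    · rcases mul_eq_zero.mp h1 with h2 | h2
      · rcases mul_eq_zero.mp h2 with h3 | h3
        · left; exact sub_eq_zero.mp h3
        · right; left; exact eq_neg_of_add_eq_zero_left h3
      · right; right; left; exact sub_eq_zero.mp h2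
    · right; right; right; exact eq_neg_of_add_eq_zero_left h1
  have e1 : (1 : ℂ) ≠ -1 := by norm_num
  have e2 : (1 : ℂ) ≠ Complex.I := by
    intro h; have := congrArg Complex.re h; simp at this
  have e3 : (1 : ℂ) ≠ -Complex.I := by
    intro h; have := congrArg Complex.re h; simp at this
  have e4 : (-1 : ℂ) ≠ Complex.I := by
    intro h; have := congrArg Complex.re h; simp at this
  have e5 : (-1 : ℂ) ≠ -Complex.I := by
    intro h; have := congrArg Complex.re h; simp at this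
  have e6 : Complex.I ≠ -Complex.I := by
    intro h; have := congrArg Complex.im h; simp at this; norm_num at this
  obtain ⟨c1, hc1⟩ : ∃ c : ℕ, c = (Finset.univ.filter (fun i => ν i = 1)).card := ⟨_, rfl⟩
  obtain ⟨cm, hcm⟩ : ∃ c : ℕ, c = (Finset.univ.filter (fun i => ν i = -1)).card := ⟨_, rfl⟩
  obtain ⟨ci, hci⟩ : ∃ c : ℕ, c = (Finset.univ.filter (fun i => ν i = Complex.I)).card :=
    ⟨_, rfl⟩
  obtain ⟨cn, hcn⟩ : ∃ c : ℕ, c = (Finset.univ.filter (fun i => ν i = -Complex.I)).card :=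
    ⟨_, rfl⟩
  have key : ∀ F : ℂ → ℂ, ∑ i, F (ν i) =
      (c1 : ℂ) * F 1 + (cm : ℂ) * F (-1) + (ci : ℂ) * F Complex.I + (cn : ℂ) * F (-Complex.I) := by
    intro F
    have hpt : ∀ i, F (ν i) = (if ν i = 1 then F 1 else 0) + (if ν i = -1 then F (-1) else 0) +
        (if ν i = Complex.I then F Complex.I else 0) +
        (if ν i = -Complex.I then F (-Complex.I) else 0) := by
      intro i
      rcases hcases i with h | h | h | h <;> rw [h]
      · simp [e1, e2, e3]
      · simp [e1.symm, e4, e5]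
      · simp [e2.symm, e4.symm, e6]
      · simp [e3.symm, e5.symm, e6.symm]
    rw [Finset.sum_congr rfl (fun i _ => hpt i)]
    simp only [Finset.sum_add_distrib, Finset.sum_ite, Finset.sum_const_zero, add_zero,
      Finset.sum_const, nsmul_eq_mul]
    rw [← hc1, ← hcm, ← hci, ← hcn]
  have hprodf : ∏ i, ν i = (-1 : ℂ) ^ cm * Complex.I ^ ci * (-Complex.I) ^ cn := by
    have hpt : ∀ i, ν i = (if ν i = -1 then (-1 : ℂ) else 1) *
        (if ν i = Complex.I then Complex.I else 1) *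
        (if ν i = -Complex.I then -Complex.I else 1) := by
      intro i
      rcases hcases i with h | h | h | h
      · rw [if_neg (by rw [h]; exact e1), if_neg (by rw [h]; exact e2),
          if_neg (by rw [h]; exact e3), h]; simp
      · rw [if_pos h, if_neg (by rw [h]; exact e4), if_neg (by rw [h]; exact e5), h]; simp
      · rw [if_neg (by rw [h]; exact e4.symm), if_pos h, if_neg (by rw [h]; exact e6), h]; simp
      · rw [if_neg (by rw [h]; exact e5.symm), if_neg (by rw [h]; exact e6.symm), if_pos h, h]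
        simp
    rw [Finset.prod_congr rfl (fun i _ => hpt i)]
    simp only [Finset.prod_mul_distrib, Finset.prod_ite, Finset.prod_const_one, mul_one,
      Finset.prod_const]
    rw [← hcm, ← hci, ← hcn]
  have k0 := key (fun _ => 1)
  have k1 := key (fun z => z ^ 1)
  have k2 := key (fun z => z ^ 2)
  have k3 := key (fun z => z ^ 3)
  simp only [Finset.sum_const, Finset.card_univ, nsmul_eq_mul, mul_one] at k0
  have hI3 : Complex.I ^ 3 = -Complex.I := by
    rw [pow_succ, hI2]; ring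
  have hnI3 : (-Complex.I) ^ 3 = Complex.I := by
    rw [neg_pow, hI3]; ring
  have hnI2 : (-Complex.I) ^ 2 = -1 := by
    rw [neg_pow, hI2]; ring
  simp only [pow_one] at k1
  rw [hI2, hnI2] at k2
  rw [hI3, hnI3] at k3
  simp only [pow_one] at h13
  -- ci = cn
  have hcicn : ci = cn := by
    have h1 : ((ci : ℂ) - (cn : ℂ)) * (2 * Complex.I) = 0 := by
      have := h13
      rw [k1, k3] at this
      linear_combination (-1 : ℂ) * this
    have h2 : (2 * Complex.I : ℂ) ≠ 0 := by
      simp [Complex.I_ne_zero]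
    have h3 : (ci : ℂ) - (cn : ℂ) = 0 := by
      rcases mul_eq_zero.mp h1 with h | h
      · exact h
      · exact absurd h h2
    exact_mod_cast sub_eq_zero.mp h3
  subst hcicn
  have heven : Even cm := by
    by_contra hodd
    rw [Nat.not_even_iff_odd] at hodd
    rw [hprodf, hodd.neg_one_pow, mul_assoc, ← mul_pow] at hprod
    have h1 : Complex.I * -Complex.I = 1 := by
      rw [mul_neg, ← pow_two, hI2]; ring
    rw [h1, one_pow] at hprod
    norm_num at hprod
  refine ⟨c1, cm, ci, heven, ?_, ?_, ?_⟩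
  · rw [k0]; ring
  · simp only [pow_one]; rw [k1]; ring
  · rw [k2]; ring

/-- the subgroup `P ∪ t P` for an involution `t` normalizing `P` -/
def dihSub {G : Type u} [Group G] (P : Subgroup G) (t : G) (ht : t * t = 1)
    (htN : t ∈ Subgroup.normalizer (P : Set G)) : Subgroup G where
  carrier := {g | g ∈ P ∨ t * g ∈ P}
  one_mem' := Or.inl P.one_mem
  mul_mem' := by
    intro a b ha hb
    have hN : ∀ y : G, y ∈ P → t * y * t⁻¹ ∈ P := fun y hy =>
      (Subgroup.mem_normalizer_iff.mp htN y).mp hy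
    rcases ha with ha | ha <;> rcases hb with hb | hb
    · exact Or.inl (P.mul_mem ha hb)
    · right
      have : t * (a * b) = (t * a * t⁻¹) * (t * b) := by group
      rw [this]
      exact P.mul_mem (hN a ha) hb
    · right
      have : t * (a * b) = (t * a) * b := by group
      rw [this]
      exact P.mul_mem ha hb
    · left
      have h1 : a * b = (t * (t * a) * t⁻¹) * (t * b) := by
        have h2 : t * (t * a) * t⁻¹ * (t * b) = (t * t) * a * b := by group
        rw [h2, ht, one_mul]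
      show a * b ∈ P
      rw [h1]
      exact P.mul_mem (hN _ ha) hb
  inv_mem' := by
    intro a ha
    have hN : ∀ y : G, y ∈ P → t * y * t⁻¹ ∈ P := fun y hy =>
      (Subgroup.mem_normalizer_iff.mp htN y).mp hy
    rcases ha with ha | ha
    · exact Or.inl (P.inv_mem ha)
    · right
      have h1 : t * a⁻¹ = t * (t * a)⁻¹ * t⁻¹ := by
        have h2 : t * (t * a)⁻¹ * t⁻¹ = t * a⁻¹ * (t * t)⁻¹ := by group
        rw [h2, ht, inv_one, mul_one]
      show t * a⁻¹ ∈ P
      rw [h1]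
      exact hN _ (P.inv_mem ha)

theorem mem_dihSub {G : Type u} [Group G] (P : Subgroup G) (t : G) (ht : t * t = 1)
    (htN : t ∈ Subgroup.normalizer (P : Set G)) (g : G) :
    g ∈ dihSub P t ht htN ↔ g ∈ P ∨ t * g ∈ P := Iff.rfl

set_option maxHeartbeats 1600000 in
theorem lemCharSums : LemCharSums.{u} := by
  intro G _ _ _ hG χ hχ1 hχr P h36 u huN hu4 huinv
  classical
  have : Fact (Nat.Prime 3) := ⟨by norm_num⟩
  have hGn : ¬ (Nat.card G).Prime := by rw [hG]; norm_num
  obtain ⟨M, hMdef⟩ : ∃ M : Subgroup G, M = Subgroup.normalizer ((P : Subgroup G) : Set G) :=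
    ⟨_, rfl⟩
  rw [← hMdef] at h36 huN ⊢
  have hPM : (P : Subgroup G) ≤ M := by rw [hMdef]; exact Subgroup.le_normalizer
  have hP9 : Nat.card (P : Subgroup G) = 9 := by
    rw [Sylow.card_eq_multiplicity, hG]
    have : (2520 : ℕ).factorization 3 = 2 := by
      have h2520 : (2520 : ℕ) = 3 ^ 2 * 280 := by norm_num
      rw [h2520, Nat.factorization_mul (by norm_num) (by norm_num), Nat.factorization_pow]
      simp [Nat.factorization_eq_zero_of_not_dvd (show ¬ 3 ∣ 280 by norm_num),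
        Nat.Prime.factorization_self Nat.prime_three]
    rw [this]
    norm_num
  have hu4' : u ^ 4 = 1 := by rw [← hu4]; exact pow_orderOf_eq_one u
  obtain ⟨t, htdef⟩ : ∃ t : G, t = u ^ 2 := ⟨_, rfl⟩
  rw [← htdef] at huinv ⊢
  have htt : t * t = 1 := by rw [htdef, ← pow_add]; exact hu4'
  have ht1 : t ≠ 1 := by
    intro h
    rw [htdef] at h
    have := orderOf_dvd_of_pow_eq_one h
    rw [hu4] at this
    omega
  have htM : t ∈ M := by rw [htdef]; exact M.pow_mem huN 2
  have htN : t ∈ Subgroup.normalizer ((P : Subgroup G) : Set G) := by rw [← hMdef]; exact htM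
  have hP9pow : ∀ w ∈ (P : Subgroup G), w ^ 9 = 1 := by
    intro w hw
    have h1 : (⟨w, hw⟩ : (P : Subgroup G)) ^ Nat.card (P : Subgroup G) = 1 := pow_card_eq_one'
    rw [hP9] at h1
    exact congrArg Subtype.val h1
  have hfpf2 : ∀ w ∈ (P : Subgroup G), w * t = t * w → w = 1 := by
    intro w hw hc
    have h1 := huinv w hw
    have h2 : w⁻¹ = w := by
      rw [← h1, ← hc]
      group
    have h3 : w ^ 2 = 1 := by
      rw [pow_two]
      nth_rewrite 1 [← h2]
      exact inv_mul_cancel w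
    have h4 := hP9pow w hw
    calc w = w ^ 9 * ((w ^ 2) ^ 4)⁻¹ := by group
      _ = 1 := by rw [h4, h3]; simp
  have htP : t ∉ (P : Subgroup G) := by
    intro h
    exact ht1 (hfpf2 t h rfl)
  have hfpf : ∀ j : ℕ, (j = 1 ∨ j = 2 ∨ j = 3) → ∀ w ∈ (P : Subgroup G),
      w * u ^ j = u ^ j * w → w = 1 := by
    intro j hj w hw hc
    apply hfpf2 w hw
    have hcm : Commute w (u ^ j) := hc
    rcases hj with rfl | rfl | rfl
    · have h1 := hcm.pow_right 2
      rw [pow_one] at h1
      rw [htdef]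
      exact h1
    · rw [htdef]; exact hc
    · have h1 := hcm.pow_right 2
      have h2 : (u ^ 3) ^ 2 = u ^ 2 := by
        rw [← pow_mul]
        calc u ^ (3 * 2) = u ^ 4 * u ^ 2 := by rw [← pow_add]
          _ = u ^ 2 := by rw [hu4', one_mul]
      rw [h2] at h1
      rw [htdef]
      exact h1
  -- the representation
  obtain ⟨n, ρ, hirr, hρ⟩ := χ.2
  have hclassf : ∀ c s : G, (χ : G → ℂ) (c * s * c⁻¹) = (χ : G → ℂ) s := by
    intro c s
    rw [← hρ]
    exact Representation.char_conj ρ s c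
  have hn : n = 6 := by
    have h1 : (χ : G → ℂ) 1 = (n : ℂ) := by
      rw [← hρ]
      simp [Representation.char_one]
    rw [hχ1] at h1
    exact_mod_cast h1.symm
  subst hn
  have hcos : ∀ j : ℕ, (j = 1 ∨ j = 2 ∨ j = 3) → ∀ x ∈ (P : Subgroup G),
      (χ : G → ℂ) (u ^ j * x) = (χ : G → ℂ) (u ^ j) := by
    intro j hj x hx
    obtain ⟨y, hy, hyx⟩ := exists_conj_of_fpf (P : Subgroup G) (u ^ j)
      (by rw [← hMdef]; exact M.pow_mem huN j) (hfpf j hj) x hx
    rw [← hyx]
    exact hclassf y (u ^ j)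
  have hsumconst : ∀ c : ℂ, ∑ᶠ _x : (P : Subgroup G), c = 9 * c := by
    intro c
    have : Fintype (P : Subgroup G) := Fintype.ofFinite _
    rw [finsum_eq_sum_of_fintype, Finset.sum_const, Finset.card_univ,
      ← Nat.card_eq_fintype_card, hP9]
    simp
  have hcossum : ∀ j : ℕ, (j = 1 ∨ j = 2 ∨ j = 3) →
      ∑ᶠ x : (P : Subgroup G), (χ : G → ℂ) (u ^ j * (x : G)) = 9 * (χ : G → ℂ) (u ^ j) := by
    intro j hj
    rw [← hsumconst]
    exact finsum_congr (fun x => hcos j hj x x.2)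
  -- the three sums
  obtain ⟨d, hd⟩ : ∃ d : ℕ, d = Module.finrank ℂ (invariants (ρ.comp (P : Subgroup G).subtype)) :=
    ⟨_, rfl⟩
  have hSP : ∑ᶠ x : (P : Subgroup G), (χ : G → ℂ) (x : G) = 9 * (d : ℂ) := by
    rw [← hρ, finsum_char_subgroup ρ (P : Subgroup G), hP9, hd]
    norm_num
  -- D
  obtain ⟨D, hDdef⟩ : ∃ D : Subgroup G, D = dihSub (P : Subgroup G) t htt htN := ⟨_, rfl⟩
  have hmemD : ∀ g : G, g ∈ D ↔ g ∈ (P : Subgroup G) ∨ t * g ∈ (P : Subgroup G) := by
    intro g
    rw [hDdef]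
    exact mem_dihSub _ _ _ _ g
  have hPD : (P : Subgroup G) ≤ D := fun g hg => (hmemD g).mpr (Or.inl hg)
  have hDM : D ≤ M := by
    intro g hg
    rcases (hmemD g).mp hg with h | h
    · exact hPM h
    · have h1 : g = t * (t * g) := by
        rw [← mul_assoc, htt, one_mul]
      rw [h1]
      exact M.mul_mem htM (hPM h)
  obtain ⟨hDcard, hDsum⟩ := finsum_cosets (P : Subgroup G) D 2 ![1, t]
    (by
      intro j x hx
      fin_cases j
      · simp only [Fin.zero_eta, Matrix.cons_val_zero, one_mul]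
        exact hPD hx
      · simp only [Fin.mk_one, Matrix.cons_val_one, Matrix.cons_val_fin_one]
        rw [hmemD]
        right
        rw [← mul_assoc, htt, one_mul]
        exact hx)
    (by
      intro i j x hx y hy h
      fin_cases i <;> fin_cases j
      · rfl
      · exfalso
        simp only [Fin.zero_eta, Matrix.cons_val_zero, one_mul, Fin.mk_one, Matrix.cons_val_one,
          Matrix.cons_val_fin_one] at h
        apply htP
        have : t = x * y⁻¹ := by rw [h]; group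
        rw [this]
        exact (P : Subgroup G).mul_mem hx ((P : Subgroup G).inv_mem hy)
      · exfalso
        simp only [Fin.zero_eta, Matrix.cons_val_zero, one_mul, Fin.mk_one, Matrix.cons_val_one,
          Matrix.cons_val_fin_one] at h
        apply htP
        have : t = y * x⁻¹ := by rw [← h]; group
        rw [this]
        exact (P : Subgroup G).mul_mem hy ((P : Subgroup G).inv_mem hx)
      · rfl)
    (Or.inl (by
      intro g hg
      rcases (hmemD g).mp hg with h | h
      · exact ⟨0, g, h, by simp⟩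
      · refine ⟨1, t * g, h, ?_⟩
        simp only [Matrix.cons_val_one, Matrix.cons_val_fin_one]
        rw [← mul_assoc, htt, one_mul]))
  obtain ⟨n1, hn1⟩ : ∃ n1 : ℕ, n1 = Module.finrank ℂ (invariants (ρ.comp D.subtype)) := ⟨_, rfl⟩
  have hSD : 9 * (d : ℂ) + 9 * (χ : G → ℂ) t = 18 * (n1 : ℂ) := by
    have h1 := hDsum (χ : G → ℂ)
    rw [Fin.sum_univ_two] at h1
    simp only [Matrix.cons_val_zero, one_mul, Matrix.cons_val_one, Matrix.cons_val_fin_one] at h1
    have h2 := hcossum 2 (Or.inr (Or.inl rfl))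
    rw [← htdef] at h2
    rw [hSP, h2] at h1
    rw [← h1, ← hρ, finsum_char_subgroup ρ D, hDcard, hP9, hn1]
    norm_num
  -- M
  obtain ⟨-, hMsum⟩ := finsum_cosets (P : Subgroup G) M 4 (fun j => u ^ (j : ℕ))
    (fun j x hx => M.mul_mem (M.pow_mem huN j) (hPM hx))
    (by
      intro i j x hx y hy h
      have h1 : (u ^ (j : ℕ))⁻¹ * u ^ (i : ℕ) = y * x⁻¹ := by
        have : u ^ (i : ℕ) = u ^ (j : ℕ) * y * x⁻¹ := by rw [← h]; group
        rw [this]; group
      have h2 : (u ^ (j : ℕ))⁻¹ * u ^ (i : ℕ) ∈ (P : Subgroup G) := by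
        rw [h1]
        exact (P : Subgroup G).mul_mem hy ((P : Subgroup G).inv_mem hx)
      have h3 := hP9pow _ h2
      have hcomm : Commute (u ^ (j : ℕ))⁻¹ (u ^ (i : ℕ)) :=
        ((Commute.refl u).pow_pow _ _).inv_left
      have h4 : ((u ^ (j : ℕ))⁻¹ * u ^ (i : ℕ)) ^ 4 = 1 := by
        rw [hcomm.mul_pow, inv_pow, ← pow_mul, ← pow_mul, mul_comm (j : ℕ) 4, mul_comm (i : ℕ) 4,
          pow_mul, pow_mul, hu4']
        simp
      have h5 : (u ^ (j : ℕ))⁻¹ * u ^ (i : ℕ) = 1 := by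
        calc (u ^ (j : ℕ))⁻¹ * u ^ (i : ℕ)
            = ((u ^ (j : ℕ))⁻¹ * u ^ (i : ℕ)) ^ 9 * ((((u ^ (j : ℕ))⁻¹ * u ^ (i : ℕ)) ^ 4) ^ 2)⁻¹ := by
              group
          _ = 1 := by rw [h3, h4]; simp
      have h6 : u ^ (i : ℕ) = u ^ (j : ℕ) := by
        rw [inv_mul_eq_one] at h5
        exact h5.symm
      have h7 := pow_injOn_Iio_orderOf (x := u) (by rw [hu4]; exact i.2) (by rw [hu4]; exact j.2) h6
      exact Fin.ext h7)
    (Or.inr (by rw [h36, hP9]))
  obtain ⟨n2, hn2⟩ : ∃ n2 : ℕ, n2 = Module.finrank ℂ (invariants (ρ.comp M.subtype)) := ⟨_, rfl⟩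
  have hu3 : u ^ 3 = u⁻¹ := by
    have : u ^ 3 * u = 1 := by rw [← pow_succ]; exact hu4'
    exact eq_inv_of_mul_eq_one_left this
  have hχu3 : (χ : G → ℂ) (u ^ 3) = (χ : G → ℂ) u := by rw [hu3]; exact hχr u
  have hSMval : ∑ᶠ m : M, (χ : G → ℂ) (m : G) = 36 * (n2 : ℂ) := by
    rw [← hρ, finsum_char_subgroup ρ M, h36, hn2]
    norm_num
  have hSM : 9 * (d : ℂ) + 9 * (2 * (χ : G → ℂ) u + (χ : G → ℂ) t) = 36 * (n2 : ℂ) := by
    have h1 := hMsum (χ : G → ℂ)
    rw [Fin.sum_univ_four] at h1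
    have h2 := hcossum 1 (Or.inl rfl)
    have h3 := hcossum 2 (Or.inr (Or.inl rfl))
    have h4 := hcossum 3 (Or.inr (Or.inr rfl))
    simp only [Fin.val_zero, pow_zero, one_mul, Fin.val_one, Fin.val_two] at h1
    have h5 : ((3 : Fin 4) : ℕ) = 3 := rfl
    rw [h5, hSP, h2, h3, h4, hχu3, ← htdef, pow_one, hSMval] at h1
    linear_combination (-1 : ℂ) * h1
  -- inequalities
  have hle1 : n2 ≤ n1 := by rw [hn1, hn2]; exact finrank_invariants_le ρ hDM
  have hle2 : n1 ≤ d := by rw [hn1, hd]; exact finrank_invariants_le ρ hPD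
  have hle3 : d ≤ 6 := by
    rw [hd]
    have h1 := Submodule.finrank_le (invariants (ρ.comp (P : Subgroup G).subtype))
    rw [Module.finrank_fin_fun] at h1
    exact h1
  have hd6 : d ≠ 6 := by
    intro h6
    have htop : invariants (ρ.comp (P : Subgroup G).subtype) = ⊤ := by
      apply Submodule.eq_top_of_finrank_eq
      rw [← hd, h6, Module.finrank_fin_fun]
    have hx1 : ∀ x ∈ (P : Subgroup G), x = 1 := by
      intro x hx
      apply Cfsg.Agent.Lib.Helper91.SS.eq_one_of_char_eq χ (by rw [hχ1]; norm_num) x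
      have h1 : ρ x = 1 := by
        apply LinearMap.ext
        intro v
        have hv : v ∈ invariants (ρ.comp (P : Subgroup G).subtype) := by rw [htop]; trivial
        rw [mem_invariants_comp] at hv
        rw [hv x hx]
        rfl
      rw [← hρ]
      unfold Representation.character
      rw [h1, map_one ρ]
    have hbot : (P : Subgroup G) = ⊥ := (Subgroup.eq_bot_iff_forall _).mpr hx1
    rw [hbot, Subgroup.card_bot] at hP9
    omega
  -- eigenvalues
  obtain ⟨ι, _, ν, hν4, hνj, hprod⟩ := Cfsg.Agent.Lib.Helper91.SS.exists_eigenvalues hGn χ u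
  rw [hu4] at hν4
  have h13 : ∑ i, ν i ^ 3 = ∑ i, ν i ^ 1 := by
    rw [← hνj 3, ← hνj 1, pow_one]
    exact hχu3
  obtain ⟨No, Na, Nb, hev, hc0, hc1, hc2⟩ := order_four_counts ν hν4 hprod h13
  have hcard : (Fintype.card ι : ℂ) = 6 := by
    have h0 := hνj 0
    simp only [pow_zero, Finset.sum_const, Finset.card_univ, nsmul_eq_mul, mul_one] at h0
    rw [← h0, hχ1]
  rw [hcard] at hc0
  rw [← hνj 1, pow_one] at hc1
  rw [← hνj 2, ← htdef] at hc2
  rw [hc1, hc2] at hSM
  rw [hc2] at hSD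
  -- to integers
  have i0 : (No : ℤ) + Na + 2 * Nb = 6 := by
    have : ((6 : ℤ) : ℂ) = (((No : ℤ) + Na + 2 * Nb : ℤ) : ℂ) := by push_cast; exact hc0
    exact_mod_cast this.symm
  have i1 : 9 * (d : ℤ) + 9 * ((No : ℤ) + Na - 2 * Nb) = 18 * n1 := by
    have : ((9 * (d : ℤ) + 9 * ((No : ℤ) + Na - 2 * Nb) : ℤ) : ℂ) = ((18 * (n1 : ℤ) : ℤ) : ℂ) := by
      push_cast; exact hSD
    exact_mod_cast this
  have i2 : 9 * (d : ℤ) + 9 * (2 * ((No : ℤ) - Na) + ((No : ℤ) + Na - 2 * Nb)) = 36 * n2 := by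
    have : ((9 * (d : ℤ) + 9 * (2 * ((No : ℤ) - Na) + ((No : ℤ) + Na - 2 * Nb)) : ℤ) : ℂ) =
        ((36 * (n2 : ℤ) : ℤ) : ℂ) := by
      push_cast; exact hSM
    exact_mod_cast this
  obtain ⟨r, hr⟩ := hev
  have hsol : No = 2 ∧ Na = 2 ∧ Nb = 1 ∧ n2 = 1 := by omega
  obtain ⟨rfl, rfl, rfl, rfl⟩ := hsol
  refine ⟨?_, ?_, ?_⟩
  · rw [hc1]; norm_num
  · rw [hc2]; norm_num
  · rw [hSMval]; norm_num

end Cfsg.Agent.Lib.Helper6.A7
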